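import Mathlib
import Cfsg.Agent.Lib.Helper79.GaloisChar
import Cfsg.Agent.Lib.Helper83.CliffCorr

set_option autoImplicit false

namespace Cfsg.Agent.Lib.Helper21.GalProd

open Cfsg Cfsg.Agent.Lib.Helper19 Cfsg.Agent.Lib.Helper20 Cfsg.Agent.Lib.Helper5
  Cfsg.Agent.Lib.Helper79 Cfsg.Agent.Lib.Helper83
open scoped ComplexConjugate

/-- the inner product of two characters as a sum of products of multiplicities -/
theorem inner_eq_sum {G : Type*} [Group G] [Fintype G] [Fintype (IrrCharacter G)] {A B : G → ℂ}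
    (hB : IsCharacter G B) (a b : IrrCharacter G → ℕ)
    (ha : ∀ ψ : IrrCharacter G, classInner A (ψ : G → ℂ) = a ψ)
    (hb : ∀ ψ : IrrCharacter G, classInner B (ψ : G → ℂ) = b ψ) :
    classInner A B = ((∑ ψ : IrrCharacter G, a ψ * b ψ : ℕ) : ℂ) := by
  conv_lhs => rw [eq_sum_classInner_smul (isClassFunction_of_isCharacter hB)]
  rw [← classInner_conj_symm, classInner_sum_left, map_sum]
  push_cast
  apply Finset.sum_congr rfl
  intro ψ _
  rw [classInner_smul_left, map_mul, classInner_conj_symm, classInner_conj_symm, ha,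
    ← classInner_conj_symm, hb]
  simp [mul_comm]

/-- RUNG INNER. two characters with two common irreducible constituents have inner product ≥ 2 -/
theorem inner_ne_one {G : Type*} [Group G] [Fintype G] {A B : G → ℂ} (hA : IsCharacter G A)
    (hB : IsCharacter G B) {γ₁ γ₂ : G → ℂ} (h₁ : IsIrrCharacter G γ₁) (h₂ : IsIrrCharacter G γ₂)
    (hne : γ₁ ≠ γ₂) (hA1 : classInner A γ₁ ≠ 0) (hA2 : classInner A γ₂ ≠ 0)
    (hB1 : classInner B γ₁ ≠ 0) (hB2 : classInner B γ₂ ≠ 0) : classInner A B ≠ 1 := by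
  classical
  have := finite_irrCharacter (G := G)
  have : Fintype (IrrCharacter G) := Fintype.ofFinite _
  choose a ha using fun ψ : IrrCharacter G => isCharacter_classInner_nat hA ψ.2
  choose b hb using fun ψ : IrrCharacter G => isCharacter_classInner_nat hB ψ.2
  rw [inner_eq_sum hB a b ha hb]
  have e1 : a ⟨γ₁, h₁⟩ ≠ 0 := by
    intro h; apply hA1; rw [ha ⟨γ₁, h₁⟩, h]; simp
  have e2 : a ⟨γ₂, h₂⟩ ≠ 0 := by
    intro h; apply hA2; rw [ha ⟨γ₂, h₂⟩, h]; simp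
  have e3 : b ⟨γ₁, h₁⟩ ≠ 0 := by
    intro h; apply hB1; rw [hb ⟨γ₁, h₁⟩, h]; simp
  have e4 : b ⟨γ₂, h₂⟩ ≠ 0 := by
    intro h; apply hB2; rw [hb ⟨γ₂, h₂⟩, h]; simp
  have hne' : (⟨γ₁, h₁⟩ : IrrCharacter G) ≠ ⟨γ₂, h₂⟩ := fun h => hne (congrArg Subtype.val h)
  have hle : ∑ ψ ∈ ({⟨γ₁, h₁⟩, ⟨γ₂, h₂⟩} : Finset (IrrCharacter G)), a ψ * b ψ ≤
      ∑ ψ : IrrCharacter G, a ψ * b ψ :=
    Finset.sum_le_sum_of_subset (Finset.subset_univ _)
  rw [Finset.sum_pair hne'] at hle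
  have p1 : 1 ≤ a ⟨γ₁, h₁⟩ * b ⟨γ₁, h₁⟩ := Nat.one_le_iff_ne_zero.mpr (Nat.mul_ne_zero e1 e3)
  have p2 : 1 ≤ a ⟨γ₂, h₂⟩ * b ⟨γ₂, h₂⟩ := Nat.one_le_iff_ne_zero.mpr (Nat.mul_ne_zero e2 e4)
  intro h
  have : (∑ ψ : IrrCharacter G, a ψ * b ψ) = 1 := by exact_mod_cast h
  omega

end Cfsg.Agent.Lib.Helper21.GalProd
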