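import Mathlib
import Cfsg.Agent.Lib.Helper5.IndDeg
import Cfsg.Agent.Lib.Helper83.Basic
import Cfsg.Agent.Lib.Helper21.GalProd.INNER

set_option autoImplicit false

namespace Cfsg.Agent.Lib.Helper21.GalProd

open Cfsg Cfsg.Agent.Lib.Helper19 Cfsg.Agent.Lib.Helper20 Cfsg.Agent.Lib.Helper5
  Cfsg.Agent.Lib.Helper79 Cfsg.Agent.Lib.Helper83
open scoped ComplexConjugate

/-- RUNG PRIM. `χ χ^σ` irreducible ⟹ `χ` is not induced from a proper subgroup -/
theorem not_induced {G : Type*} [Group G] [Fintype G] (χ : G → ℂ) (hχ : IsIrrCharacter G χ)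
    (k : ℕ) (hk : k.Coprime (Nat.card G))
    (hirr : IsIrrCharacter G (fun g => χ g * χ (g ^ k)))
    (T : Subgroup G) (ψ : T → ℂ) (hψ : IsIrrCharacter T ψ) (hind : indFun T ψ = χ) : T = ⊤ := by
  classical
  have hχc := isCharacter_of_isIrrCharacter hχ
  have hψc := isCharacter_of_isIrrCharacter hψ
  have hχk : IsIrrCharacter G (fun g => χ (g ^ k)) := IsIrrCharacter.pow_coprime hχ k hk
  have hχkc := isCharacter_of_isIrrCharacter hχk
  set X : T → ℂ := fun t => χ ((t : G) ^ k) with hXdef
  set R : T → ℂ := fun t => χ (t : G) with hRdef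
  have hX : IsCharacter T X := isCharacter_restrict hχkc T
  have hR : IsCharacter T R := isCharacter_restrict hχc T
  have hη : indFun T (ψ * X) = fun g => χ g * χ (g ^ k) := by
    have := indFun_mul_restrict T ψ (fun g => χ (g ^ k)) (isClassFunction_of_isCharacter hχkc)
    rw [hind] at this
    exact this
  have e := frobenius_reciprocity T (ψ * X) (fun g => χ g * χ (g ^ k))
    (isClassFunction_of_isCharacter (isCharacter_of_isIrrCharacter hirr))
  rw [hη, classInner_irr_self hirr] at e
  have hY : IsCharacter T (fun t => X t * conj (X t)) := isCharacter_mul hX (isCharacter_conj hX)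
  have hW : IsCharacter T (fun t => conj (ψ t) * R t) := isCharacter_mul (isCharacter_conj hψc) hR
  have hYW : classInner (fun t => X t * conj (X t)) (fun t => conj (ψ t) * R t) = 1 := by
    rw [e]
    unfold classInner
    congr 1
    apply Finset.sum_congr rfl
    intro t _
    simp only [map_mul, Complex.conj_conj, Pi.mul_apply, hXdef, hRdef]
    ring
  have := finite_irrCharacter (G := T)
  have : Fintype (IrrCharacter T) := Fintype.ofFinite _
  choose a ha using fun β : IrrCharacter T => isCharacter_classInner_nat hY β.2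
  choose b hb using fun β : IrrCharacter T => isCharacter_classInner_nat hW β.2
  rw [inner_eq_sum hW a b ha hb] at hYW
  have hsum : (∑ β : IrrCharacter T, a β * b β) = 1 := by exact_mod_cast hYW
  have htriv : IsIrrCharacter T (fun _ => (1 : ℂ)) := isIrr_trivial
  have hle : a ⟨_, htriv⟩ * b ⟨_, htriv⟩ ≤ ∑ β : IrrCharacter T, a β * b β :=
    Finset.single_le_sum (f := fun β => a β * b β) (fun _ _ => Nat.zero_le _) (Finset.mem_univ _)
  -- `[R, ψ] = 1`
  have hRψ : classInner R ψ = 1 := by
    rw [← classInner_conj_symm, ← frobenius_reciprocity T ψ χ (isClassFunction_of_isCharacter hχc),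
      hind, classInner_irr_self hχ, map_one]
  have hb1 : b ⟨_, htriv⟩ = 1 := by
    have h1 := hb ⟨_, htriv⟩
    have h2 : classInner (fun t => conj (ψ t) * R t) (fun _ => (1 : ℂ)) = classInner R ψ := by
      unfold classInner
      congr 1
      apply Finset.sum_congr rfl
      intro t _
      simp [mul_comm]
    rw [show ((⟨_, htriv⟩ : IrrCharacter T) : T → ℂ) = fun _ => (1 : ℂ) from rfl, h2, hRψ] at h1
    exact_mod_cast h1.symm
  have hTk : (Nat.card T).Coprime k :=
    (Nat.Coprime.coprime_dvd_right (Subgroup.card_subgroup_dvd_card T) hk).symm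
  have ha1 : classInner R R = a ⟨_, htriv⟩ := by
    rw [← ha ⟨_, htriv⟩]
    show classInner R R = classInner (fun t => X t * conj (X t)) (fun _ => (1 : ℂ))
    unfold classInner
    congr 1
    symm
    refine Fintype.sum_equiv (powCoprime hTk) _ _ ?_
    intro t
    simp only [hXdef, hRdef, powCoprime_apply, Subgroup.coe_pow, map_one, mul_one]
  have ha_le : a ⟨_, htriv⟩ ≤ 1 := by
    rw [hb1, mul_one, hsum] at hle
    exact hle
  have h10 := Cfsg.Agent.Lib.Helper19.irr_one_ne_zero hχ
  have hψ10 := Cfsg.Agent.Lib.Helper19.irr_one_ne_zero hψ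
  have ha_ne : a ⟨_, htriv⟩ ≠ 0 := by
    intro h0
    rw [h0, Nat.cast_zero] at ha1
    have := congrFun (classInner_self_eq_zero ha1) 1
    exact h10 this
  have ha_eq : a ⟨_, htriv⟩ = 1 := by omega
  rw [ha_eq, Nat.cast_one] at ha1
  have hRirr : IsIrrCharacter T R := isIrrCharacter_iff.mpr ⟨hR, ha1⟩
  have hRe : R = ψ := by
    by_contra hne
    rw [classInner_irr_ne hRirr hψ hne] at hRψ
    exact zero_ne_one hRψ
  have h1 := congrFun hind 1
  rw [Cfsg.Agent.Lib.Helper5.indFun_one] at h1
  have h2 : χ 1 = ψ 1 := congrFun hRe 1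
  rw [h2] at h1
  have h3 : (T.index : ℂ) = 1 := mul_right_cancel₀ hψ10 (by rw [h1, one_mul])
  have h4 : T.index = 1 := by exact_mod_cast h3
  exact Subgroup.index_eq_one.mp h4

end Cfsg.Agent.Lib.Helper21.GalProd
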