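import Mathlib
import Cfsg.Agent.Lib.Helper82.Central
import Cfsg.Agent.Lib.Helper5.Inertia
import Cfsg.Agent.Lib.Helper21.GalProd.PRIM

set_option autoImplicit false

namespace Cfsg.Agent.Lib.Helper21.GalProd

open Cfsg Cfsg.Agent.Lib.Helper19 Cfsg.Agent.Lib.Helper20 Cfsg.Agent.Lib.Helper5
  Cfsg.Agent.Lib.Helper79 Cfsg.Agent.Lib.Helper83
open scoped ComplexConjugate

/-- RUNG ABEL. abelian normal subgroups are central -/
theorem abelian_normal_le_center {G : Type*} [Group G] [Fintype G] (χ : G → ℂ)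
    (hχ : IsIrrCharacter G χ) (hfaith : ∀ g : G, χ g = χ 1 → g = 1)
    (k : ℕ) (hk : k.Coprime (Nat.card G))
    (hirr : IsIrrCharacter G (fun g => χ g * χ (g ^ k)))
    (A : Subgroup G) (hA : A.Normal) (hc : ∀ a ∈ A, ∀ b ∈ A, a * b = b * a) :
    A ≤ Subgroup.center G := by
  classical
  have hχc := isCharacter_of_isIrrCharacter hχ
  have hcf := isClassFunction_of_isCharacter hχc
  have h10 := Cfsg.Agent.Lib.Helper19.irr_one_ne_zero hχ
  obtain ⟨lam, hlam, hcon⟩ := exists_constituent (isCharacter_restrict hχc A) h10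
  have hlamcf := isClassFunction_of_isCharacter (isCharacter_of_isIrrCharacter hlam)
  set T := inertia hA lam with hT
  have hAT : A ≤ T := le_inertia hA hlamcf
  haveI := hA
  have := finite_irrCharacter (G := T)
  have : Fintype (IrrCharacter T) := Fintype.ofFinite _
  obtain ⟨hc1, -, hdec⟩ := clifford_corr A lam hlam T (fun g => mem_inertia' hA lam g) hAT
  have h1 : classInner (indFun A lam) χ ≠ 0 := by
    rw [frobenius_reciprocity A lam χ hcf, ← classInner_conj_symm]
    intro h
    apply hcon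
    have := congrArg conj h
    simpa using this
  rw [hdec, Cfsg.Agent.Lib.Helper20.classInner_sum_left] at h1
  obtain ⟨ψ, -, hψ⟩ := Finset.exists_ne_zero_of_sum_ne_zero h1
  rw [Cfsg.Agent.Lib.Helper20.classInner_smul_left] at hψ
  have hψ1 := left_ne_zero_of_mul hψ
  have hψ2 := right_ne_zero_of_mul hψ
  have hind_irr := hc1 ψ hψ1
  have hind : indFun T (ψ : T → ℂ) = χ := by
    by_contra hne
    exact hψ2 (classInner_irr_ne hind_irr hχ hne)
  have hTtop : T = ⊤ := not_induced χ hχ k hk hirr T ψ ψ.2 hind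
  have hinv : ∀ g : G, cjF hA lam g = lam := by
    intro g
    have : g ∈ T := hTtop ▸ Subgroup.mem_top g
    exact (mem_inertia hA lam g).mp this
  have hres := clifford_invariant hA hχ hlam hcon hinv
  set c := classInner (fun n : A => χ n) lam with hcdef
  have hval : ∀ a : A, χ (a : G) = c * lam a := fun a => congrFun hres a
  -- multiplicativity on `A`
  have hAc : ∀ a : A, a ∈ Subgroup.center A := by
    intro a
    rw [Subgroup.mem_center_iff]
    intro b
    apply Subtype.ext
    exact hc b b.2 a a.2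
  have hmul : ∀ a b : A, χ ((a : G) * (b : G)) * χ 1 = χ (a : G) * χ (b : G) := by
    intro a b
    have h2 := Cfsg.Agent.Lib.Helper82.isIrr_central_mul hlam (hAc a) b
    have e1 : χ ((a : G) * (b : G)) = c * lam (a * b) := hval (a * b)
    have e2 : χ 1 = c * lam 1 := hval 1
    rw [e1, e2, hval a, hval b]
    calc c * lam (a * b) * (c * lam 1) = c * c * (lam (a * b) * lam 1) := by ring
      _ = c * c * (lam a * lam b) := by rw [h2]
      _ = _ := by ring
  intro a ha
  rw [Subgroup.mem_center_iff]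
  intro g
  have hb : g * a⁻¹ * g⁻¹ ∈ A := hA.conj_mem _ (A.inv_mem ha) g
  have h3 := hmul ⟨a, ha⟩ ⟨_, hb⟩
  have h4 := hmul ⟨a, ha⟩ ⟨a⁻¹, A.inv_mem ha⟩
  simp only at h3 h4
  rw [hcf a⁻¹ g, ← h4, mul_inv_cancel] at h3
  have h5 : χ (a * (g * a⁻¹ * g⁻¹)) = χ 1 := mul_right_cancel₀ h10 h3
  have h6 := hfaith _ h5
  calc g * a = (a * (g * a⁻¹ * g⁻¹))⁻¹ * (a * g) := by group
    _ = a * g := by rw [h6]; group

end Cfsg.Agent.Lib.Helper21.GalProd
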