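import Mathlib
import Cfsg.Agent.Lib.Helper79.GaloisChar
import Cfsg.Agent.Lib.Helper83.CliffCorr
import Cfsg.Agent.Lib.Helper82.Central
import Cfsg.Agent.Lib.Helper44.CharTools
import Cfsg.Agent.Lib.Helper81.ClassAlg
import Cfsg.Agent.Lib.Helper21.GalProd.INNER

/-!
# `χ χ^σ` irreducible: no non-central element which is central modulo the centre
-/

set_option autoImplicit false

namespace Cfsg.Agent.Lib.Helper21.GalProd

open Cfsg Cfsg.Agent.Lib.Helper19 Cfsg.Agent.Lib.Helper20 Cfsg.Agent.Lib.Helper5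
  Cfsg.Agent.Lib.Helper79 Cfsg.Agent.Lib.Helper83
open scoped ComplexConjugate

/-- the subgroup of elements commuting with `y` modulo the centre -/
def cenMod {G : Type*} [Group G] (y : G) : Subgroup G where
  carrier := {t | t * y * t⁻¹ * y⁻¹ ∈ Subgroup.center G}
  one_mem' := by
    show (1 : G) * y * 1⁻¹ * y⁻¹ ∈ Subgroup.center G
    have : (1 : G) * y * 1⁻¹ * y⁻¹ = 1 := by group
    rw [this]; exact Subgroup.one_mem _
  mul_mem' := by
    intro t s ht hs
    show (t * s) * y * (t * s)⁻¹ * y⁻¹ ∈ Subgroup.center G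
    have hs' : s * y * s⁻¹ * y⁻¹ ∈ Subgroup.center G := hs
    have ht' : t * y * t⁻¹ * y⁻¹ ∈ Subgroup.center G := ht
    have h1 := Subgroup.mem_center_iff.mp hs' t
    have : (t * s) * y * (t * s)⁻¹ * y⁻¹ = (s * y * s⁻¹ * y⁻¹) * (t * y * t⁻¹ * y⁻¹) := by
      calc (t * s) * y * (t * s)⁻¹ * y⁻¹ = (t * (s * y * s⁻¹ * y⁻¹)) * (y * t⁻¹ * y⁻¹) := by group
        _ = ((s * y * s⁻¹ * y⁻¹) * t) * (y * t⁻¹ * y⁻¹) := by rw [h1]
        _ = _ := by group
    rw [this]
    exact Subgroup.mul_mem _ hs' ht'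
  inv_mem' := by
    intro t ht
    show t⁻¹ * y * t⁻¹⁻¹ * y⁻¹ ∈ Subgroup.center G
    have ht' : t * y * t⁻¹ * y⁻¹ ∈ Subgroup.center G := ht
    have h1 := Subgroup.mem_center_iff.mp (Subgroup.inv_mem _ ht') t⁻¹
    have : t⁻¹ * y * t⁻¹⁻¹ * y⁻¹ = (t * y * t⁻¹ * y⁻¹)⁻¹ := by
      calc t⁻¹ * y * t⁻¹⁻¹ * y⁻¹ = (t⁻¹ * (t * y * t⁻¹ * y⁻¹)⁻¹) * t := by group
        _ = ((t * y * t⁻¹ * y⁻¹)⁻¹ * t⁻¹) * t := by rw [h1]
        _ = _ := by group
    rw [this]
    exact Subgroup.inv_mem _ ht'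

theorem mem_cenMod {G : Type*} [Group G] (y t : G) :
    t ∈ cenMod y ↔ t * y * t⁻¹ * y⁻¹ ∈ Subgroup.center G := Iff.rfl

theorem comm_mul {G : Type*} [Group G] (y t s : G)
    (hs : s * y * s⁻¹ * y⁻¹ ∈ Subgroup.center G) :
    (t * s) * y * (t * s)⁻¹ * y⁻¹ = (s * y * s⁻¹ * y⁻¹) * (t * y * t⁻¹ * y⁻¹) := by
  have h1 := Subgroup.mem_center_iff.mp hs t
  calc (t * s) * y * (t * s)⁻¹ * y⁻¹ = (t * (s * y * s⁻¹ * y⁻¹)) * (y * t⁻¹ * y⁻¹) := by group
    _ = ((s * y * s⁻¹ * y⁻¹) * t) * (y * t⁻¹ * y⁻¹) := by rw [h1]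
    _ = _ := by group

section

variable {G : Type*} [Group G] [Fintype G] {χ : G → ℂ}

theorem om_mul (hχ : IsIrrCharacter G χ) {z : G} (hz : z ∈ Subgroup.center G) (g : G) :
    χ (z * g) = χ z / χ 1 * χ g := by
  have h10 := Cfsg.Agent.Lib.Helper81.irr_one_ne_zero hχ
  have := Cfsg.Agent.Lib.Helper82.isIrr_central_mul hχ hz g
  field_simp
  exact this

/-- the linear character `t ↦ ω([t,y])` of `cenMod y` -/
noncomputable def del (hχ : IsIrrCharacter G χ) (y : G) : cenMod y →* ℂ where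
  toFun t := χ ((t : G) * y * (t : G)⁻¹ * y⁻¹) / χ 1
  map_one' := by
    have h10 := Cfsg.Agent.Lib.Helper81.irr_one_ne_zero hχ
    have : ((1 : cenMod y) : G) * y * ((1 : cenMod y) : G)⁻¹ * y⁻¹ = 1 := by
      rw [Subgroup.coe_one]; group
    rw [this]
    exact div_self h10
  map_mul' := by
    intro t s
    have h10 := Cfsg.Agent.Lib.Helper81.irr_one_ne_zero hχ
    rw [Subgroup.coe_mul, comm_mul y t s s.2, om_mul hχ s.2]
    ring

theorem del_apply (hχ : IsIrrCharacter G χ) (y : G) (t : cenMod y) :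
    del hχ y t = χ ((t : G) * y * (t : G)⁻¹ * y⁻¹) / χ 1 := rfl

/-- `χ(t) ≠ 0 ⟹ δ(t) = 1` -/
theorem del_eq_one (hχ : IsIrrCharacter G χ) (y : G) (t : cenMod y) (h : χ (t : G) ≠ 0) :
    del hχ y t = 1 := by
  have hcf : IsClassFunction G χ :=
    isClassFunction_of_isCharacter (isCharacter_of_isIrrCharacter hχ)
  have h1 : χ (y⁻¹ * (t : G) * y) = χ (t : G) := by
    have := hcf (t : G) y⁻¹
    rwa [inv_inv] at this
  have hc := Subgroup.mem_center_iff.mp t.2 y⁻¹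
  have h2 : y⁻¹ * (t : G) * y = ((t : G) * y * (t : G)⁻¹ * y⁻¹) * (t : G) := by
    calc y⁻¹ * (t : G) * y = (y⁻¹ * ((t : G) * y * (t : G)⁻¹ * y⁻¹)) * (y * (t : G)) := by group
      _ = (((t : G) * y * (t : G)⁻¹ * y⁻¹) * y⁻¹) * (y * (t : G)) := by rw [hc]
      _ = _ := by group
  rw [h2, om_mul hχ t.2] at h1
  rw [del_apply]
  exact mul_right_cancel₀ h (by rw [h1, one_mul])

theorem om_inj (hχ : IsIrrCharacter G χ) (hfaith : ∀ g : G, χ g = χ 1 → g = 1) {z w : G}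
    (hz : z ∈ Subgroup.center G) (hw : w ∈ Subgroup.center G) (h : χ z / χ 1 = χ w / χ 1) :
    z = w := by
  have h10 := Cfsg.Agent.Lib.Helper81.irr_one_ne_zero hχ
  have h1 : χ (z * w⁻¹) = χ z / χ 1 * χ w⁻¹ := om_mul hχ hz _
  have h2 : χ (w * w⁻¹) = χ w / χ 1 * χ w⁻¹ := om_mul hχ hw _
  rw [h, ← h2, mul_inv_cancel] at h1
  exact mul_inv_eq_one.mp (hfaith _ h1)

/-- a function `f` with `f(t) ≠ 0 ⟹ δ(t) = 1`: `δ^G` is a constituent of `|f|²` -/
theorem inner_ind_ne_zero (T : Subgroup G) (δ : T → ℂ) (f : G → ℂ)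
    (hf : IsClassFunction G (fun g => f g * conj (f g)))
    (hvan : ∀ t : T, f (t : G) ≠ 0 → δ t = 1) (hf1 : f 1 ≠ 0) :
    classInner (fun g => f g * conj (f g)) (indFun T δ) ≠ 0 := by
  classical
  rw [← classInner_conj_symm]
  intro h
  have h' : classInner (indFun T δ) (fun g => f g * conj (f g)) = 0 := by
    have := congrArg conj h
    simpa using this
  rw [frobenius_reciprocity T δ _ hf] at h'
  unfold classInner at h'
  have hT0 : (Nat.card T : ℂ)⁻¹ ≠ 0 := by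
    apply inv_ne_zero
    exact_mod_cast Nat.card_pos.ne'
  have h2 := (mul_eq_zero.mp h').resolve_left hT0
  have h3 : ∀ t : T, δ t * conj (f (t : G) * conj (f (t : G))) =
      ((Complex.normSq (f (t : G)) : ℝ) : ℂ) := by
    intro t
    rw [map_mul, Complex.conj_conj, mul_comm (conj (f (t : G))), Complex.mul_conj]
    by_cases h0 : f (t : G) = 0
    · rw [h0]; simp
    · rw [hvan t h0, one_mul]
  simp only [h3] at h2
  rw [← Complex.ofReal_sum] at h2
  have h4 : ∑ t : T, Complex.normSq (f (t : G)) = 0 := by exact_mod_cast h2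
  have h5 := (Finset.sum_eq_zero_iff_of_nonneg
    (fun t _ => Complex.normSq_nonneg (f ((t : T) : G)))).mp h4 1 (Finset.mem_univ _)
  exact hf1 (Complex.normSq_eq_zero.mp h5)

/-- RUNG MAIN. -/
theorem no_central_mod (χ : G → ℂ)
    (hχ : IsIrrCharacter G χ) (hfaith : ∀ g : G, χ g = χ 1 → g = 1)
    (k : ℕ) (hk : k.Coprime (Nat.card G))
    (hirr : IsIrrCharacter G (fun g => χ g * χ (g ^ k)))
    (M : Subgroup G) (hM : M.Normal)
    (hZ : ∀ x ∈ M, (∀ m ∈ M, x * m = m * x) → x ∈ Subgroup.center G)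
    (y : G) (hy : y ∈ M) (hyZ : y ∉ Subgroup.center G)
    (hyc : ∀ t ∈ M, y * t * y⁻¹ * t⁻¹ ∈ Subgroup.center G) : False := by
  classical
  have hχc := isCharacter_of_isIrrCharacter hχ
  have h10 := Cfsg.Agent.Lib.Helper81.irr_one_ne_zero hχ
  set T := cenMod y with hT
  set δ := del hχ y with hδ
  have hMT : M ≤ T := by
    intro t ht
    rw [hT, mem_cenMod]
    have := Subgroup.inv_mem _ (hyc t ht)
    have e : (y * t * y⁻¹ * t⁻¹)⁻¹ = t * y * t⁻¹ * y⁻¹ := by group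
    rwa [e] at this
  have hδirr : IsIrrCharacter T δ := Cfsg.Agent.Lib.Helper44.isIrrCharacter_monoidHom δ
  let lam : M →* ℂ := δ.comp (Subgroup.inclusion hMT)
  have hlam : IsIrrCharacter M lam := Cfsg.Agent.Lib.Helper44.isIrrCharacter_monoidHom lam
  have hlam_apply : ∀ n : M, lam n = χ ((n : G) * y * (n : G)⁻¹ * y⁻¹) / χ 1 := fun n => rfl
  have hin : ∀ g : G, g ∈ T ↔
      ∀ n : M, lam ⟨g * n * g⁻¹, hM.conj_mem (n : G) n.2 g⟩ = lam n := by
    intro g
    constructor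
    · intro hg n
      have e : (Subgroup.inclusion hMT ⟨g * n * g⁻¹, hM.conj_mem (n : G) n.2 g⟩ : T) =
          (⟨g, hg⟩ : T) * (Subgroup.inclusion hMT n) * (⟨g, hg⟩ : T)⁻¹ := by
        apply Subtype.ext
        rfl
      show δ (Subgroup.inclusion hMT ⟨g * n * g⁻¹, hM.conj_mem (n : G) n.2 g⟩) =
        δ (Subgroup.inclusion hMT n)
      rw [e, map_mul, map_mul, mul_comm (δ ⟨g, hg⟩), mul_assoc, ← map_mul, mul_inv_cancel,
        map_one, mul_one]
    · intro h
      -- `m = g⁻¹ y g`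
      have hm : g⁻¹ * y * g ∈ M := by
        have := hM.conj_mem y hy g⁻¹
        rwa [inv_inv] at this
      have hcomm : ∀ n ∈ M, (y⁻¹ * (g⁻¹ * y * g)) * n = n * (y⁻¹ * (g⁻¹ * y * g)) := by
        intro n hn
        have hn' : n⁻¹ ∈ M := M.inv_mem hn
        have h1 := h ⟨n⁻¹, hn'⟩
        rw [hlam_apply, hlam_apply] at h1
        have hz1 : (g * n⁻¹ * g⁻¹) * y * (g * n⁻¹ * g⁻¹)⁻¹ * y⁻¹ ∈ Subgroup.center G :=
          hMT (hM.conj_mem _ hn' g)
        have hz2 : n⁻¹ * y * n⁻¹⁻¹ * y⁻¹ ∈ Subgroup.center G := hMT hn'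
        have h2 := om_inj hχ hfaith hz1 hz2 h1
        -- conjugate back
        have h3 := Subgroup.mem_center_iff.mp hz2 g
        have h4 : n⁻¹ * (g⁻¹ * y * g) * n * (g⁻¹ * y * g)⁻¹ = n⁻¹ * y * n⁻¹⁻¹ * y⁻¹ := by
          calc n⁻¹ * (g⁻¹ * y * g) * n * (g⁻¹ * y * g)⁻¹
              = g⁻¹ * ((g * n⁻¹ * g⁻¹) * y * (g * n⁻¹ * g⁻¹)⁻¹ * y⁻¹) * g := by group
            _ = g⁻¹ * ((n⁻¹ * y * n⁻¹⁻¹ * y⁻¹) * g) := by rw [h2]; group
            _ = g⁻¹ * (g * (n⁻¹ * y * n⁻¹⁻¹ * y⁻¹)) := by rw [h3]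
            _ = _ := by group
        have h5 : (g⁻¹ * y * g) * n * (g⁻¹ * y * g)⁻¹ = y * n * y⁻¹ := by
          have := congrArg (fun w => n * w) h4
          calc (g⁻¹ * y * g) * n * (g⁻¹ * y * g)⁻¹
              = n * (n⁻¹ * (g⁻¹ * y * g) * n * (g⁻¹ * y * g)⁻¹) := by group
            _ = n * (n⁻¹ * y * n⁻¹⁻¹ * y⁻¹) := this
            _ = _ := by group
        calc (y⁻¹ * (g⁻¹ * y * g)) * n
            = y⁻¹ * ((g⁻¹ * y * g) * n * (g⁻¹ * y * g)⁻¹) * (g⁻¹ * y * g) := by group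
          _ = y⁻¹ * (y * n * y⁻¹) * (g⁻¹ * y * g) := by rw [h5]
          _ = _ := by group
      have hw : y⁻¹ * (g⁻¹ * y * g) ∈ Subgroup.center G :=
        hZ _ (M.mul_mem (M.inv_mem hy) hm) hcomm
      rw [hT, mem_cenMod]
      have hw' := Subgroup.inv_mem _ hw
      have h6 := Subgroup.mem_center_iff.mp hw' (g * y)
      have : g * y * g⁻¹ * y⁻¹ = (y⁻¹ * (g⁻¹ * y * g))⁻¹ := by
        calc g * y * g⁻¹ * y⁻¹ = ((g * y) * (y⁻¹ * (g⁻¹ * y * g))⁻¹) * (g * y)⁻¹ := by group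
          _ = ((y⁻¹ * (g⁻¹ * y * g))⁻¹ * (g * y)) * (g * y)⁻¹ := by rw [h6]
          _ = _ := by group
      rw [this]
      exact hw'
  haveI := hM
  have : Fintype (IrrCharacter T) := Fintype.ofFinite _
  obtain ⟨hc1, -, -⟩ := clifford_corr M lam hlam T hin hMT
  have hδcf : IsClassFunction T δ :=
    isClassFunction_of_isCharacter (isCharacter_of_isIrrCharacter hδirr)
  have hα : IsIrrCharacter G (indFun T δ) := by
    apply hc1 ⟨δ, hδirr⟩
    rw [frobenius_reciprocity _ _ _ hδcf]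
    have hres : IsIrrCharacter (M.subgroupOf T) (δ.comp (M.subgroupOf T).subtype) :=
      Cfsg.Agent.Lib.Helper44.isIrrCharacter_monoidHom _
    have := classInner_irr_self hres
    intro h0
    apply one_ne_zero (α := ℂ)
    rw [← this, ← h0]
    rfl
  -- `δ ≠ 1`
  have hδ1 : (δ : T → ℂ) ≠ fun _ => 1 := by
    intro h
    apply hyZ
    apply hZ y hy
    intro m hm
    have h1 := congrFun h ⟨m, hMT hm⟩
    have h2 : χ (m * y * m⁻¹ * y⁻¹) / χ 1 = χ 1 / χ 1 := by
      rw [div_self h10]; exact h1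
    have h3 := om_inj hχ hfaith (hMT hm) (Subgroup.one_mem _) h2
    calc y * m = (m * y * m⁻¹ * y⁻¹)⁻¹ * (m * y) := by group
      _ = m * y := by rw [h3]; group
  have htriv : IsIrrCharacter G (fun _ => (1 : ℂ)) := isIrr_trivial
  have htrivT : IsIrrCharacter T (fun _ => (1 : ℂ)) := isIrr_trivial
  have hne : (fun _ : G => (1 : ℂ)) ≠ indFun T δ := by
    intro h
    have h1 := classInner_irr_self htriv
    have h2 : classInner (indFun T δ) (fun _ : G => (1 : ℂ)) = 1 := by rw [← h]; exact h1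
    rw [frobenius_reciprocity T δ _
      (isClassFunction_of_isCharacter (isCharacter_of_isIrrCharacter htriv))] at h2
    rw [classInner_irr_ne hδirr htrivT hδ1] at h2
    exact zero_ne_one h2
  have hχk : IsIrrCharacter G (fun g => χ (g ^ k)) := IsIrrCharacter.pow_coprime hχ k hk
  have hχkc := isCharacter_of_isIrrCharacter hχk
  have hA : IsCharacter G (fun g => χ g * conj (χ g)) :=
    isCharacter_mul hχc (isCharacter_conj hχc)
  have hB : IsCharacter G (fun g => χ (g ^ k) * conj (χ (g ^ k))) :=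
    isCharacter_mul hχkc (isCharacter_conj hχkc)
  have hA1 : classInner (fun g => χ g * conj (χ g)) (fun _ => (1 : ℂ)) ≠ 0 := by
    have := classInner_irr_self hχ
    have e : classInner (fun g => χ g * conj (χ g)) (fun _ => (1 : ℂ)) = classInner χ χ := by
      unfold classInner
      simp
    rw [e, this]
    exact one_ne_zero
  have hB1 : classInner (fun g => χ (g ^ k) * conj (χ (g ^ k))) (fun _ => (1 : ℂ)) ≠ 0 := by
    have := classInner_irr_self hχk
    have e : classInner (fun g => χ (g ^ k) * conj (χ (g ^ k))) (fun _ => (1 : ℂ)) =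
        classInner (fun g => χ (g ^ k)) (fun g => χ (g ^ k)) := by
      unfold classInner
      simp
    rw [e, this]
    exact one_ne_zero
  have hA2 := inner_ind_ne_zero T δ χ (isClassFunction_of_isCharacter hA)
    (fun t ht => del_eq_one hχ y t ht) h10
  have hB2 := inner_ind_ne_zero T δ (fun g => χ (g ^ k)) (isClassFunction_of_isCharacter hB)
    (fun t ht => by
      have h1 : δ (t ^ k) = 1 := del_eq_one hχ y (t ^ k) (by rw [Subgroup.coe_pow]; exact ht)
      rw [map_pow] at h1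
      have h2 : δ t ^ (Nat.card G) = 1 := by
        rw [← map_pow]
        have : t ^ (Nat.card G) = 1 := by
          apply Subtype.ext
          rw [Subgroup.coe_pow, Subgroup.coe_one]
          exact pow_card_eq_one'
        rw [this, map_one]
      have h3 := pow_gcd_eq_one.mpr ⟨h1, h2⟩
      rw [Nat.Coprime.gcd_eq_one hk, pow_one] at h3
      exact h3) (by rw [one_pow]; exact h10)
  have hAB : classInner (fun g => χ g * conj (χ g)) (fun g => χ (g ^ k) * conj (χ (g ^ k))) = 1 := by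
    rw [← classInner_irr_self hirr]
    unfold classInner
    congr 1
    apply Finset.sum_congr rfl
    intro g _
    simp only [map_mul, Complex.conj_conj]
    ring
  exact inner_ne_one hA hB htriv hα hne hA1 hA2 hB1 hB2 hAB

end

end Cfsg.Agent.Lib.Helper21.GalProd
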